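import Cfsg.Agent.H81.Frob
import Cfsg.Agent.H1.Frattini
import Mathlib.GroupTheory.Transfer
import Mathlib.GroupTheory.Abelianization.Defs

/-! Naturality of the transfer, and a count of the conjugates of a trivial-intersection set. -/

set_option autoImplicit false
set_option linter.unusedSectionVars false
set_option linter.style.haveILetI false

namespace Cfsg.Agent.CSC

open Subgroup MulAction

section transfer

variable {K A : Type*} [Group K] [Finite K] [CommGroup A] {P : Subgroup K}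

theorem sec_mem {t : K ⧸ P → K} (ht : ∀ q, (t q : K ⧸ P) = q) (g : K) (q : K ⧸ P) :
    (t q)⁻¹ * (g * t (g⁻¹ • q)) ∈ P := by
  rw [← QuotientGroup.eq, ht, ← smul_eq_mul, ← Quotient.smul_coe, ht, smul_inv_smul]

theorem transfer_sec [Fintype (K ⧸ P)] (ϕ : P →* A) {t : K ⧸ P → K} (ht : ∀ q, (t q : K ⧸ P) = q) (g : K) :
    MonoidHom.transfer ϕ g = ∏ q, ϕ ⟨_, sec_mem ht g q⟩ := by
  rw [MonoidHom.transfer_def ϕ ⟨Set.range t, isComplement_range_left ht⟩ g, leftTransversals.diff]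
  refine Finset.prod_congr (congrArg (@Finset.univ _) (Subsingleton.elim _ _)) fun q _ => congrArg ϕ (Subtype.ext ?_)
  simp only [smul_apply_eq_smul_apply_inv_smul, IsComplement.leftQuotientEquiv_apply ht, smul_eq_mul]

theorem transfer_nat (ϕ : P →* A) (β : A →* A) (α : MulAut K) (hα : ∀ x, α x ∈ P ↔ x ∈ P)
    (hβ : ∀ x : P, ϕ ⟨α x, (hα _).2 x.2⟩ = β (ϕ x)) (g : K) :
    MonoidHom.transfer ϕ (α g) = β (MonoidHom.transfer ϕ g) := by
  letI := Fintype.ofFinite (K ⧸ P)
  let e : K ⧸ P ≃ K ⧸ P := Quotient.congr α.toEquiv fun a b => by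
    rw [QuotientGroup.leftRel_apply, QuotientGroup.leftRel_apply, ← hα, map_mul, map_inv]; rfl
  have he : ∀ x : K, e (x : K ⧸ P) = (α x : K) := fun x => rfl
  have ht : ∀ q : K ⧸ P, ((q.out : K) : K ⧸ P) = q := QuotientGroup.out_eq'
  have ht' : ∀ q : K ⧸ P, ((α (e.symm q).out : K) : K ⧸ P) = q := fun q => by
    rw [← he, ht, Equiv.apply_symm_apply]
  have hs : ∀ (g : K) (q : K ⧸ P), e (g • q) = α g • e q := fun g q => by
    induction q using QuotientGroup.induction_on with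
    | H x => rw [Quotient.smul_coe, he, he, Quotient.smul_coe, smul_eq_mul, smul_eq_mul, map_mul]
  rw [transfer_sec ϕ ht' (α g), transfer_sec ϕ ht g, map_prod]
  refine (Fintype.prod_equiv e _ _ fun q => ?_).symm
  rw [← hβ]
  refine congrArg ϕ (Subtype.ext ?_)
  simp only [map_mul, map_inv]
  rw [← map_inv α g, ← hs, Equiv.symm_apply_apply, Equiv.symm_apply_apply]

theorem transfer_res {B : Type*} [CommGroup B] (ϕ : P →* A) (β : A →* B) (ε : K →* B)
    (h : ∀ x : P, β (ϕ x) = ε x) (g : K) : β (MonoidHom.transfer ϕ g) = ε g ^ P.index := by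
  letI := Fintype.ofFinite (K ⧸ P)
  have ht : ∀ q : K ⧸ P, ((q.out : K) : K ⧸ P) = q := QuotientGroup.out_eq'
  rw [transfer_sec ϕ ht g, map_prod]
  simp only [h, map_mul, map_inv, Finset.prod_mul_distrib, Finset.prod_inv_distrib, Finset.prod_const]
  rw [Fintype.prod_equiv (toPerm g⁻¹) (fun q : K ⧸ P => ε (g⁻¹ • q).out) (fun q => ε q.out) fun _ => rfl,
    mul_comm (ε g ^ _), inv_mul_cancel_left, Finset.card_univ, ← Nat.card_eq_fintype_card]
  rfl

/-- The image of the transfer: a coset of `P'` outside `T`, of order two, fixed by all automorphisms. -/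
theorem exists_inv {T : Subgroup K} [T.Normal] (hT : T.index = 2) (hc : T ≤ commutator K) (hP : Odd P.index) :
    ∃ x : P, (x : K) ∉ T ∧ x * x ∈ commutator P ∧ ∀ (α : MulAut K) (hα : ∀ x, α x ∈ P ↔ x ∈ P),
      x⁻¹ * ⟨α x, (hα _).2 x.2⟩ ∈ commutator P := by
  have hq : Nat.card (K ⧸ T) = 2 := hT
  haveI : Fact (Nat.Prime 2) := ⟨Nat.prime_two⟩
  haveI := isCyclic_of_prime_card hq
  letI : CommGroup (K ⧸ T) := IsCyclic.commGroup
  let V := MonoidHom.transfer (Abelianization.of : P →* Abelianization P)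
  have hV : ∀ t ∈ T, V t = 1 := fun t ht => Abelianization.commutator_subset_ker V (hc ht)
  obtain ⟨y, hy⟩ : ∃ y, y ∉ T := by
    by_contra! h
    rw [(eq_top_iff' T).2 h, index_top] at hT
    omega
  have hV2 : ∀ y', y' ∉ T → V y' = V y := fun y' h => by
    rw [← inv_mul_eq_one, ← map_inv, ← map_mul]
    exact hV _ ((mul_mem_iff_of_index_two hT).2 (by simp [h, hy]))
  obtain ⟨x, hx⟩ : ∃ x : P, Abelianization.of x = V y := QuotientGroup.mk_surjective (V y)
  have key : ∀ {z : P}, Abelianization.of z = 1 → z ∈ commutator P := fun h => (QuotientGroup.eq_one_iff _).1 h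
  refine ⟨x, fun h => hy ?_, key ?_, fun α hα => key ?_⟩
  · have := transfer_res (Abelianization.of : P →* Abelianization P)
      (Abelianization.lift ((QuotientGroup.mk' T).comp P.subtype)) (QuotientGroup.mk' T) (fun _ => rfl) y
    rw [← hx] at this
    have h1 : QuotientGroup.mk' T y ^ P.index = 1 := this.symm.trans ((QuotientGroup.eq_one_iff _).2 h)
    have h2 : QuotientGroup.mk' T y ^ 2 = 1 := hq ▸ pow_card_eq_one'
    obtain ⟨k, hk⟩ := hP
    rw [hk, pow_succ, pow_mul, h2, one_pow, one_mul] at h1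
    exact (QuotientGroup.eq_one_iff _).1 h1
  · rw [map_mul, hx, ← map_mul]
    exact hV _ ((mul_mem_iff_of_index_two hT).2 Iff.rfl)
  · let a : P →* P := (α.toMonoidHom.comp P.subtype).codRestrict P fun x => (hα _).2 x.2
    have := transfer_nat (Abelianization.of : P →* Abelianization P) (Abelianization.map a) α hα (fun _ => rfl) y
    have hc' : commutator K ≤ T := Abelianization.commutator_subset_ker (QuotientGroup.mk' T) |>.trans
      (QuotientGroup.ker_mk' T).le
    have h3 : α y ∉ T := fun h => hy (hc' (by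
      have h4 := hc h
      rwa [← characteristic_iff_comap_eq.1 (inferInstance : (commutator K).Characteristic) α] ))
    rw [map_mul, map_inv, inv_mul_eq_one, hx, ← hV2 _ h3]
    exact this.trans (by rw [← hx]; rfl)

end transfer

section count

variable {G : Type*} [Group G] [Finite G]

/-- counting the conjugates of the elements of a trivial-intersection set -/
theorem ti_card (A N : Subgroup G) (Z : Set G) (h1 : ∀ n ∈ N, ∀ z ∈ Z, n * z * n⁻¹ ∈ Z)
    (h2 : ∀ g, ∀ z ∈ Z, g * z * g⁻¹ ∈ Z → g ∈ N) :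
    Nat.card {y // ∃ g ∈ A, g * y * g⁻¹ ∈ Z} * Nat.card ↥(N ⊓ A) = Nat.card A * Nat.card Z := by
  rw [← Nat.card_prod, ← Nat.card_prod]
  choose c hc hz using fun y : {y // ∃ g ∈ A, g * y * g⁻¹ ∈ Z} => y.2
  refine Nat.card_eq_of_bijective (fun u => (⟨u.2 * c u.1, mul_mem u.2.2.2 (hc _)⟩,
    ⟨u.2 * (c u.1 * u.1 * (c u.1)⁻¹) * (u.2 : G)⁻¹, h1 _ u.2.2.1 _ (hz _)⟩)) ⟨?_, ?_⟩
  · rintro ⟨y, n⟩ ⟨y', n'⟩ h
    have e1 : (n : G) * c y = n' * c y' := congrArg (fun u => (u.1 : G)) h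
    have e2 : (n : G) * (c y * y * (c y)⁻¹) * (n : G)⁻¹ = n' * (c y' * y' * (c y')⁻¹) * (n' : G)⁻¹ :=
      congrArg (fun u => (u.2 : G)) h
    have e3 : y = y' := Subtype.ext (by
      calc (y : G) = (n * c y)⁻¹ * (n * (c y * y * (c y)⁻¹) * (n : G)⁻¹) * (n * c y) := by group
        _ = y' := by rw [e2, e1]; group)
    subst e3
    exact Prod.ext rfl (Subtype.ext (mul_right_cancel e1))
  · rintro ⟨g, z⟩
    let y : {y // ∃ g ∈ A, g * y * g⁻¹ ∈ Z} := ⟨(g : G)⁻¹ * z * g, g, g.2, by simp [mul_assoc]⟩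
    have e : (g : G) * (c y)⁻¹ * (c y * y * (c y)⁻¹) * (g * (c y)⁻¹)⁻¹ = z := by
      show (g : G) * (c y)⁻¹ * (c y * ((g : G)⁻¹ * z * g) * (c y)⁻¹) * (g * (c y)⁻¹)⁻¹ = z
      group
    refine ⟨(y, ⟨g * (c y)⁻¹, h2 _ _ (hz y) (e ▸ z.2), A.mul_mem g.2 (A.inv_mem (hc y))⟩), Prod.ext
      (Subtype.ext ?_) (Subtype.ext e)⟩
    show (g : G) * (c y)⁻¹ * c y = g
    group

end count

end Cfsg.Agent.CSC
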