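import Cfsg.Agent.CSC.A
import Cfsg.Agent.H42.SylIn

/-! If cyclic 2-subgroups of the same order are conjugate, a perfect normal subgroup of even order has odd index. -/

set_option autoImplicit false
set_option linter.unusedSectionVars false
set_option linter.style.haveILetI false

namespace Cfsg.Agent.CSC

open Subgroup Cfsg.Agent.H42

/-- cyclic 2-subgroups of the same order are conjugate -/
def C2 (G : Type*) [Group G] : Prop :=
  ∀ (k : ℕ) (x y : G), orderOf x = 2 ^ k → orderOf y = 2 ^ k → ∃ g, g * x * g⁻¹ ∈ zpowers y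

variable {G : Type*} [Group G] [Finite G]

theorem order_pow_down {y : G} {a b : ℕ} (hy : orderOf y = 2 ^ b) (h : a ≤ b) :
    orderOf (y ^ 2 ^ (b - a)) = 2 ^ a := by
  rw [orderOf_pow_of_dvd (by positivity) (hy ▸ pow_dvd_pow 2 (Nat.sub_le b a)), hy,
    Nat.pow_div (Nat.sub_le b a) two_pos]
  congr 1
  omega

theorem C2.quot (h : C2 G) (N : Subgroup G) [N.Normal] : C2 (G ⧸ N) := by
  haveI : Fact (Nat.Prime 2) := ⟨Nat.prime_two⟩
  have lift : ∀ (k : ℕ) (x : G ⧸ N), orderOf x = 2 ^ k → ∃ (y : G) (a : ℕ), orderOf y = 2 ^ a ∧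
      zpowers (y : G ⧸ N) = zpowers x := fun k x hx => by
    obtain ⟨y, rfl⟩ := QuotientGroup.mk_surjective x
    obtain ⟨a, m, hm, e⟩ := Nat.exists_eq_two_pow_mul_odd (orderOf_pos y).ne'
    obtain ⟨b, -, hb⟩ := (Nat.dvd_prime_pow Nat.prime_two (m := a)).1 (orderOf_dvd_of_pow_eq_one
      (show (y ^ m) ^ 2 ^ a = 1 by rw [← pow_mul, mul_comm, ← e, pow_orderOf_eq_one]))
    refine ⟨y ^ m, b, hb, eq_of_le_of_card_ge (zpowers_le.2 (pow_mem (mem_zpowers (y : G ⧸ N)) m)) ?_⟩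
    rw [Nat.card_zpowers, Nat.card_zpowers, QuotientGroup.mk_pow,
      Nat.Coprime.orderOf_pow (hx ▸ Nat.Coprime.pow_left _ hm.coprime_two_left)]
  have key : ∀ (x y : G) (a b : ℕ), orderOf x = 2 ^ a → orderOf y = 2 ^ b → a ≤ b →
      ∃ g : G ⧸ N, g * x * g⁻¹ ∈ zpowers (y : G ⧸ N) := fun x y a b hx hy hab => by
    obtain ⟨g, hg⟩ := h a x _ hx (order_pow_down hy hab)
    obtain ⟨n, hn⟩ := zpowers_le.2 (pow_mem (mem_zpowers y) _) hg
    exact ⟨g, n, by simpa using congrArg (QuotientGroup.mk' N) hn⟩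
  intro k x y hx hy
  obtain ⟨x', a, ha, ex⟩ := lift k x hx
  obtain ⟨y', b, hb, ey⟩ := lift k y hy
  have up : ∀ {u v g : G ⧸ N} {z : G ⧸ N}, zpowers z = zpowers u → g * z * g⁻¹ ∈ zpowers v →
      g * u * g⁻¹ ∈ zpowers v := fun {u v g z} e hz => by
    obtain ⟨n, rfl⟩ := e.ge (mem_zpowers u)
    rw [← conj_zpow]
    exact zpow_mem hz n
  rcases le_total a b with hab | hab
  · obtain ⟨g, hg⟩ := key _ _ _ _ ha hb hab
    exact ⟨g, up ex (ey ▸ hg)⟩
  · obtain ⟨g, hg⟩ := key _ _ _ _ hb ha hab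
    have h1 := up ey (ex ▸ hg)
    have h2 : zpowers (g * y * g⁻¹) = zpowers x := eq_of_le_of_card_ge (zpowers_le.2 h1) (by
      rw [Nat.card_zpowers, Nat.card_zpowers, hx, ← hy]
      exact (MulAut.conj g).orderOf_eq y |>.ge)
    obtain ⟨n, hn⟩ := h2.ge (mem_zpowers x)
    refine ⟨g⁻¹, n, ?_⟩
    simp only [conj_zpow] at hn ⊢
    rw [← hn]; group

theorem exists_central {T : Subgroup G} [T.Normal] (S : Sylow 2 G) (h : 2 ∣ T.index) :
    ∃ σ : G ⧸ T, orderOf σ = 2 ∧ ∀ w ∈ (S : Subgroup G), (w : G ⧸ T) * σ = σ * w := by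
  haveI : Fact (Nat.Prime 2) := ⟨Nat.prime_two⟩
  let Q := (S : Subgroup G).map (QuotientGroup.mk' T)
  have hQ : IsPGroup 2 Q := S.2.map _
  haveI : Nontrivial Q := (nontrivial_iff_ne_bot Q).2 fun e => S.not_dvd_index (h.trans (index_dvd_of_le (by
    rwa [Subgroup.map_eq_bot_iff, QuotientGroup.ker_mk'] at e)))
  haveI := hQ.center_nontrivial
  obtain ⟨n, hn, e⟩ := (hQ.to_subgroup (center Q)).nontrivial_iff_card.1 inferInstance
  obtain ⟨z, hz⟩ := exists_prime_orderOf_dvd_card' (G := center Q) 2 (e ▸ dvd_pow_self 2 hn.ne')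
  refine ⟨z.1.1, by rw [orderOf_coe, orderOf_coe, hz], fun w hw => ?_⟩
  exact congrArg Subtype.val (mem_center_iff.1 z.2 ⟨_, w, hw, rfl⟩)

theorem card_split (p q : G → Prop) :
    Nat.card {x // p x} = Nat.card {x // p x ∧ q x} + Nat.card {x // p x ∧ ¬ q x} := by
  classical
  rw [← Nat.card_sum]
  exact (Nat.card_congr (((Equiv.subtypeSubtypeEquivSubtypeInter p q).symm.sumCongr
    (Equiv.subtypeSubtypeEquivSubtypeInter p fun x => ¬ q x).symm).trans (Equiv.sumCompl _))).symm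

theorem dvd_card_sol (H : Subgroup G) {d n : ℕ} (h1 : d ∣ n) (h2 : d ∣ Nat.card H) :
    d ∣ Nat.card {x : G // x ∈ H ∧ x ^ n = 1} := by
  have := (Nat.dvd_gcd h1 h2).trans (H81.gcd_dvd_card_pow_eq_one (G := H) n)
  rwa [Nat.card_congr (((Equiv.refl H).subtypeEquiv (q := fun x : H => (x : G) ^ n = 1) fun x => by
    rw [Subtype.ext_iff]; rfl).trans (Equiv.subtypeSubtypeEquivSubtypeInter (· ∈ H) fun x => x ^ n = 1))] at this

theorem C2.odd_index (h : C2 G) {T : Subgroup G} [hT : T.Normal] (hp : T ≤ ⁅T, T⁆) (he : 2 ∣ Nat.card T) :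
    ¬ 2 ∣ T.index := fun hi => by
  haveI : Fact (Nat.Prime 2) := ⟨Nat.prime_two⟩
  obtain ⟨t, ht⟩ := exists_prime_orderOf_dvd_card' (G := T) 2 he
  obtain ⟨S, hS⟩ := (IsPGroup.of_card (p := 2) (n := 1) (G := zpowers (t : G))
    (by rw [Nat.card_zpowers, orderOf_coe, ht]; rfl)).exists_le_sylow
  obtain ⟨σ, hσ, hc⟩ := exists_central S hi
  let π := QuotientGroup.mk' T
  have hπ : ∀ {x}, π x = 1 ↔ x ∈ T := fun {x} => QuotientGroup.eq_one_iff x
  have σ1 : σ ≠ 1 := fun e => by rw [e, orderOf_one] at hσ; omega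
  have σ2 : σ ^ 2 = 1 := hσ ▸ pow_orderOf_eq_one σ
  have zσ : ∀ {u}, u ∈ zpowers σ → u = 1 ∨ u = σ := fun {u} hu => by
    classical
    rw [mem_zpowers_iff_mem_range_orderOf, hσ] at hu
    simpa [Finset.range_add_one, eq_comm, or_comm] using hu
  let H := (zpowers σ).comap π
  let G1 := (centralizer {σ}).comap π
  have mG1 : ∀ {g}, g ∈ G1 ↔ π g * σ = σ * π g := mem_centralizer_singleton_iff
  have TH : T ≤ H := fun x hx => show π x ∈ zpowers σ from hπ.2 hx ▸ one_mem _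
  have SG1 : (S : Subgroup G) ≤ G1 := fun w hw => mG1.2 (hc w hw)
  have HG1 : H ≤ G1 := fun x hx => mG1.2 (by rcases zσ hx with e | e <;> simp [e])
  have cjσ : ∀ {g x}, g ∈ G1 → π (g * x * g⁻¹) = σ → π x = σ := fun {g x} hg e => by
    rw [map_mul, map_mul, map_inv, mul_inv_eq_iff_eq_mul, ← mG1.1 hg] at e
    exact mul_left_cancel e
  have G1H : G1 ≤ normalizer (H : Set G) := fun g hg => mem_normalizer_of_conj_mem fun x hx => by
    show π _ ∈ zpowers σ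
    rcases zσ hx with e | e
    · rw [map_mul, map_mul, e, mul_one, ← map_mul, mul_inv_cancel, map_one]; exact one_mem _
    · rw [map_mul, map_mul, e, mG1.1 hg, mul_assoc, ← map_mul, mul_inv_cancel, map_one, mul_one]
      exact mem_zpowers σ
  have syl := (sylIn_of_le S SG1).inf_normal HG1 G1H
  have idx : (T.subgroupOf H).index = 2 := by
    rw [← relIndex, ← QuotientGroup.ker_mk' T, relIndex_ker,
      map_comap_eq_self_of_surjective (QuotientGroup.mk'_surjective T), Nat.card_zpowers, hσ]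
  let P := (S : Subgroup G).subgroupOf H
  obtain ⟨x, x1, x2, x3⟩ := exists_inv (P := P) idx (fun y hy => by
      have := commutator_mono TH TH (hp hy)
      rw [← map_subtype_commutator] at this
      obtain ⟨z, hz, e⟩ := this
      exact (Subtype.ext e : z = y) ▸ hz)
    (Nat.odd_iff.2 (Nat.two_dvd_ne_zero.1 (by have := syl.ndvd; rwa [inf_relIndex_right] at this)))
  let x0 : G := x.1.1
  have xS : x0 ∈ (S : Subgroup G) := x.2
  have xσ : π x0 = σ := (zσ x.1.2).resolve_left fun e => x1 (hπ.1 e)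
  have zx : ∀ {z}, z ∈ zpowers x0 → z ∉ T → π z = σ := fun {z} hz hz' => (zσ (by
    obtain ⟨n, rfl⟩ := hz
    exact ⟨n, by simp only [map_zpow, xσ]⟩)).resolve_left fun e => hz' (hπ.1 e)
  have nT : ∀ {z}, π z = σ → ∀ g, g * z * g⁻¹ ∉ T := fun {z} e g hz =>
    σ1 (e.symm.trans (hπ.2 (by simpa [mul_assoc] using hT.conj_mem _ hz g⁻¹)))
  -- all 2-elements over `σ` have the same order
  have ord : ∀ {a b : ℕ} {u v : G}, π u = σ → π v = σ → orderOf u = 2 ^ a → orderOf v = 2 ^ b → b ≤ a :=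
    fun {a b u v} hu hv ha hb => not_lt.1 fun hab => by
      obtain ⟨g, hg⟩ := h a u _ ha (order_pow_down hb hab.le)
      refine nT hu g (zpowers_le.2 (hπ.1 ?_) hg)
      obtain ⟨c, e⟩ : ∃ c, b - a = c + 1 := ⟨b - a - 1, by omega⟩
      rw [map_pow, hv, e, pow_succ', pow_mul, σ2, one_pow]
  obtain ⟨n, hn⟩ := S.2.exists_card_eq
  have o2 : ∀ {y : G}, y ^ 2 ^ n = 1 → ∃ a, orderOf y = 2 ^ a := fun hy =>
    ((Nat.dvd_prime_pow Nat.prime_two).1 (orderOf_dvd_of_pow_eq_one hy)).imp fun _ h => h.2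
  have pS : ∀ {y}, y ∈ (S : Subgroup G) → y ^ 2 ^ n = 1 := fun {y} hy =>
    congrArg Subtype.val (hn ▸ pow_card_eq_one' (x := (⟨y, hy⟩ : (S : Subgroup G))))
  obtain ⟨m, hm⟩ := o2 (pS xS)
  have ord' : ∀ {y : G}, π y = σ → y ^ 2 ^ n = 1 → orderOf y = 2 ^ m := fun hy hy' => by
    obtain ⟨a, ha⟩ := o2 hy'
    rw [ha, le_antisymm (ord xσ hy hm ha) (ord hy xσ ha hm)]
  let Z : Set G := {z | z ∈ zpowers x0 ∧ π z = σ}
  let N := normalizer (zpowers x0 : Set G)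
  have ZS : ∀ {z}, z ∈ Z → z ∈ (S : Subgroup G) := fun hz => zpowers_le.2 xS hz.1
  have t1 : ∀ g ∈ N, ∀ z ∈ Z, g * z * g⁻¹ ∈ Z := fun g hg z hz =>
    ⟨conj_mem_of_mem_normalizer hg hz.1, zx (conj_mem_of_mem_normalizer hg hz.1) (nT hz.2 g)⟩
  have t2 : ∀ g, ∀ z ∈ Z, g * z * g⁻¹ ∈ Z → g ∈ N := fun g z hz hg => mem_normalizer_of_conj_mem fun u hu => by
    obtain ⟨k, rfl⟩ := (eq_of_le_of_card_ge (zpowers_le.2 hz.1) (by
      rw [Nat.card_zpowers, Nat.card_zpowers, hm, ord' hz.2 (pS (ZS hz))])).ge hu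
    rw [← conj_zpow]
    exact zpow_mem hg.1 k
  have c1 := ti_card G1 N Z t1 t2
  have c2 := ti_card (S : Subgroup G) N Z t1 t2
  let S0 := (S : Subgroup G) ⊓ T
  have d0 : Nat.card S0 ∣ 2 ^ n := hn ▸ card_dvd_of_le inf_le_left
  have d1 : Nat.card S0 ∣ Nat.card {y // ∃ g ∈ G1, g * y * g⁻¹ ∈ Z} := by
    have e1 := dvd_card_sol H d0 (card_dvd_of_le (inf_le_right.trans TH))
    have e2 := dvd_card_sol T d0 (card_dvd_of_le inf_le_right)
    rw [card_split (fun x => x ∈ H ∧ x ^ 2 ^ n = 1) (· ∈ T), Nat.card_congr (Equiv.subtypeEquivRight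
      (p := fun x => (x ∈ H ∧ x ^ 2 ^ n = 1) ∧ x ∈ T) (q := fun x => x ∈ T ∧ x ^ 2 ^ n = 1)
      fun x => ⟨fun h => ⟨h.2, h.1.2⟩, fun h => ⟨⟨TH h.1, h.2⟩, h.1⟩⟩), Nat.dvd_add_right e2] at e1
    rwa [Nat.card_congr (Equiv.subtypeEquivRight (p := fun x => (x ∈ H ∧ x ^ 2 ^ n = 1) ∧ x ∉ T)
      (q := fun y => ∃ g ∈ G1, g * y * g⁻¹ ∈ Z) fun y => ⟨?_, ?_⟩)] at e1
    · rintro ⟨⟨h1, h2⟩, h3⟩
      have h4 := (zσ h1).resolve_left fun e => h3 (hπ.1 e)
      obtain ⟨g, hg⟩ := h m y x0 (ord' h4 h2) hm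
      have h5 := zx hg (nT h4 g)
      refine ⟨g, mG1.2 ?_, hg, h5⟩
      rwa [map_mul, map_mul, map_inv, h4, mul_inv_eq_iff_eq_mul] at h5
    · rintro ⟨g, hg, hz⟩
      have h4 := cjσ hg hz.2
      refine ⟨⟨show π y ∈ zpowers σ from h4 ▸ mem_zpowers σ, ?_⟩, fun e => σ1 (h4.symm.trans (hπ.2 e))⟩
      have := pS (ZS hz)
      rwa [conj_pow, conj_eq_one_iff] at this
  have d2 : Nat.card S0 ∣ Nat.card {y // ∃ g ∈ (S : Subgroup G), g * y * g⁻¹ ∈ Z} := by
    have e1 := mul_dvd_mul d1 (card_dvd_of_le (inf_le_inf_left N SG1))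
    rw [c1, ← card_mul_relIndex SG1, mul_right_comm, ← c2] at e1
    refine Nat.dvd_of_mul_dvd_mul_right Nat.card_pos (Nat.Coprime.dvd_of_dvd_mul_right ?_ e1)
    have e2 := (Nat.Prime.coprime_iff_not_dvd Nat.prime_two).2 (sylIn_of_le S SG1).ndvd
    exact Nat.Coprime.mul_left ((e2.pow_left n).coprime_dvd_left d0)
      ((e2.pow_left n).coprime_dvd_left (hn ▸ card_dvd_of_le inf_le_right))
  -- every element of `x S₀` is conjugate in `S` to an odd power of `x`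
  have sur : ∀ c ∈ S0, ∃ g ∈ (S : Subgroup G), g * (x0 * c) * g⁻¹ ∈ Z := fun c hc => by
    haveI : Nonempty {y // ∃ g ∈ (S : Subgroup G), g * y * g⁻¹ ∈ Z} :=
      ⟨⟨x0, 1, one_mem _, by simpa using ⟨mem_zpowers x0, xσ⟩⟩⟩
    let f : {y // ∃ g ∈ (S : Subgroup G), g * y * g⁻¹ ∈ Z} → S0 := fun y => ⟨x0⁻¹ * y, by
      obtain ⟨g, hg, hz⟩ := y.2
      refine ⟨(S : Subgroup G).mul_mem ((S : Subgroup G).inv_mem xS) ?_, hπ.1 (by rw [map_mul, map_inv, xσ, cjσ (SG1 hg) hz.2, inv_mul_cancel])⟩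
      simpa [mul_assoc] using mul_mem (mul_mem (inv_mem hg) (ZS hz)) hg⟩
    obtain ⟨y, hy⟩ := (Function.Injective.bijective_of_nat_card_le (f := f)
      (fun a b e => Subtype.ext (mul_left_cancel (congrArg Subtype.val e))) (Nat.le_of_dvd Nat.card_pos d2)).2 ⟨c, hc⟩
    rw [← show x0⁻¹ * y = c from congrArg Subtype.val hy, mul_inv_cancel_left]
    exact y.2
  have com : ∀ c : P, c.1.1 ∈ T → c ∈ commutator P := fun c hc => by
    obtain ⟨g, hg, ⟨k, hk⟩, hz⟩ := sur c ⟨c.2, hc⟩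
    let α := H.normalizerMonoidHom ⟨g⁻¹, G1H (SG1 (inv_mem hg))⟩
    have hα : ∀ y, α y ∈ P ↔ y ∈ P := fun y => by
      show g⁻¹ * y * g⁻¹⁻¹ ∈ (S : Subgroup G) ↔ (y : G) ∈ (S : Subgroup G)
      rw [mul_mem_cancel_right (inv_mem (inv_mem hg)), mul_mem_cancel_left (inv_mem hg)]
    have e1 : x * c = (⟨α x, (hα _).2 x.2⟩ : P) ^ k := Subtype.ext (Subtype.ext (by
      simp only [coe_mul, coe_zpow]
      show x0 * c = (g⁻¹ * x0 * g⁻¹⁻¹) ^ k
      rw [conj_zpow, show x0 ^ k = _ from hk]; group))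
    have e2 := (QuotientGroup.eq_one_iff _).2 (x3 α hα)
    have e3 := (QuotientGroup.eq_one_iff _).2 x2
    change Abelianization.of _ = 1 at e2 e3
    rw [map_mul, map_inv, inv_mul_eq_one] at e2
    have e4 := congrArg Abelianization.of e1
    rw [map_mul, map_zpow, ← e2] at e4
    obtain ⟨j, rfl⟩ : Odd k := Int.not_even_iff_odd.1 (by
      rintro ⟨j, rfl⟩
      rw [← show x0 ^ (j + j) = _ from hk, map_zpow, xσ, ← two_mul, zpow_mul, zpow_ofNat, σ2,
        one_zpow] at hz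
      exact σ1 hz.symm)
    rw [map_mul] at e3
    rw [zpow_add, zpow_mul, zpow_two, e3, one_zpow, one_mul, zpow_one, mul_eq_left] at e4
    exact (QuotientGroup.eq_one_iff _).1 e4
  have top : zpowers x = ⊤ := frattini_nongenerating (eq_top_iff.2 fun y _ => by
    have fr := H1.commutator_le_frattini (G := P) (S.2.comap_subtype)
    by_cases hy : y.1.1 ∈ T
    · exact mem_sup_right (fr (com y hy))
    · rw [← mul_inv_cancel_left x y]
      exact mul_mem_sup (mem_zpowers x) (fr (com _ ((mul_mem_iff_of_index_two idx (a := x.1⁻¹) (b := y.1)).2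
        (iff_of_false (fun e => x1 (by simpa using e)) hy)))))
  haveI : IsCyclic P := isCyclic_iff_exists_zpowers_eq_top.2 ⟨x, top⟩
  have := com ⟨⟨t, TH t.2⟩, hS (mem_zpowers _)⟩ t.2
  rw [commutator_eq_bot, mem_bot] at this
  rw [show t = 1 from Subtype.ext (congrArg (fun u : P => u.1.1) this), orderOf_one] at ht
  omega

end Cfsg.Agent.CSC
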